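import Cfsg.Agent.H229.Large
import Cfsg.Agent.S0058

/-!
# Abelian large `2`-subgroups

`Q` an abelian large `2`-subgroup with `Q = O₂(N_G(Q))`, `B = Ω₁(Q)`: `C_G(B) = Q`, `N_G(B) = N_G(Q)`, `B` is a TI
subgroup, weakly closed in its normalizer. If `Q` is not the unique maximal one then `O₂(G) = O(G) = 1`.
-/

set_option autoImplicit false
open Cfsg Subgroup
open Cfsg.Agent.H229

namespace Cfsg.Agent.H257.LargeAb

variable {G : Type*} [Group G]

/-- an abelian large `2`-subgroup with `Q = O₂(N_G(Q))`. -/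
structure AbLarge (Q : Subgroup G) : Prop where
  large : LargeP 2 Q
  comm : ∀ a ∈ Q, ∀ b ∈ Q, a * b = b * a
  core : Q = pCoreOf 2 (normalizer (Q : Set G))

variable {Q : Subgroup G}

namespace AbLarge

theorem le_cent (h : AbLarge Q) : Q ≤ centralizer (Q : Set G) := by
  intro a ha
  rw [mem_centralizer_iff]
  exact fun b hb => h.comm b hb a ha

theorem cent_eq (h : AbLarge Q) : centralizer (Q : Set G) = Q :=
  le_antisymm h.large.cent h.le_cent

theorem norm_le (h : AbLarge Q) {U : Subgroup G} (hU : U ≤ Q) (hU1 : U ≠ ⊥) :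
    normalizer (U : Set G) ≤ normalizer (Q : Set G) := h.large.norm (hU.trans h.le_cent) hU1

theorem ti [Finite G] (h : AbLarge Q) {g x : G} (hx : x ∈ Q) (hxg : x ∈ cj g Q) (hx1 : x ≠ 1) :
    g ∈ normalizer (Q : Set G) := by
  by_contra hg
  have h1 := h.large.inf_centralizer_eq_bot hg
  rw [← cj_centralizer, h.cent_eq] at h1
  have h2 : x ∈ (⊥ : Subgroup G) := h1 ▸ mem_inf.2 ⟨hx, hxg⟩
  exact hx1 (mem_bot.1 h2)

theorem cent_elt (h : AbLarge Q) {x : G} (hx : x ∈ Q) (hx1 : x ≠ 1) {y : G} (hy : y * x = x * y) :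
    y ∈ normalizer (Q : Set G) := by
  have h1 : zpowers x ≤ Q := by rw [zpowers_le]; exact hx
  have h2 : zpowers x ≠ ⊥ := by rw [Ne, zpowers_eq_bot]; exact hx1
  refine h.norm_le h1 h2 (centralizer_le_norm _ ?_)
  rw [mem_centralizer_iff]
  rintro _ ⟨n, rfl⟩
  have h3 : Commute y x := hy
  exact (h3.zpow_right n).eq.symm

/-- `Ω₁(Q)` -/
abbrev om (Q : Subgroup G) : Subgroup G := zOmega 2 Q

theorem mem_om (h : AbLarge Q) {x : G} : x ∈ om Q ↔ x ∈ Q ∧ x ^ 2 = 1 := by
  rw [mem_zOmega]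
  exact ⟨fun hx => ⟨hx.1, hx.2.2⟩, fun hx => ⟨hx.1, h.le_cent hx.1, hx.2⟩⟩

theorem om_le (h : AbLarge Q) : om Q ≤ Q := fun _ hx => (h.mem_om.1 hx).1

theorem om_ea (_h : AbLarge Q) : IsElementaryAbelian 2 (om Q) := ea_zOmega 2 Q

theorem om_ne_bot [Finite G] (h : AbLarge Q) : om Q ≠ ⊥ := by
  intro h0
  apply h.large.ne_bot
  rw [eq_bot_iff]
  intro x hx
  rw [mem_bot]
  obtain ⟨k, hk⟩ := h.large.pgroup ⟨x, hx⟩
  have hk' : x ^ 2 ^ k = 1 := by
    have := congrArg (Subtype.val) hk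
    simpa using this
  clear hk
  induction k generalizing x with
  | zero => simpa using hk'
  | succ k ih =>
    have h2 : x ^ 2 = 1 := by
      apply ih (Q.pow_mem hx 2)
      rw [← pow_mul, mul_comm, ← pow_succ]
      exact hk'
    have h3 : x ∈ om Q := h.mem_om.2 ⟨hx, h2⟩
    rw [h0] at h3
    exact mem_bot.1 h3

theorem norm_om [Finite G] (h : AbLarge Q) : normalizer (om Q : Set G) = normalizer (Q : Set G) :=
  le_antisymm (h.norm_le h.om_le h.om_ne_bot) (norm_le_norm_zOmega 2 Q)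

/-- elements of odd order centralizing `Ω₁(Q)` centralize `Q` -/
theorem odd_cent (h : AbLarge Q) {x : G} (hxN : x ∈ normalizer (Q : Set G))
    (hx : x ∈ centralizer (om Q : Set G)) (hxo : (orderOf x).Coprime 2) : x ∈ centralizer (Q : Set G) := by
  have key : ∀ k : ℕ, ∀ q ∈ Q, q ^ 2 ^ k = 1 → x * q * x⁻¹ = q := by
    intro k
    induction k with
    | zero =>
      intro q _ hq
      have : q = 1 := by simpa using hq
      subst this
      simp
    | succ k ih =>
      intro q hq hqk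
      have h1 : x * q ^ 2 * x⁻¹ = q ^ 2 := by
        apply ih _ (Q.pow_mem hq 2)
        rw [← pow_mul, mul_comm, ← pow_succ]
        exact hqk
      have h2 : x * q * x⁻¹ ∈ Q := le_norm_iff.1 le_rfl x hxN q hq
      have hc : Commute q⁻¹ (x * q * x⁻¹) := h.comm _ (Q.inv_mem hq) _ h2
      have h3 : (q⁻¹ * (x * q * x⁻¹)) ^ 2 = 1 := by
        rw [hc.mul_pow]
        have e : (x * q * x⁻¹) ^ 2 = x * q ^ 2 * x⁻¹ := by rw [pow_two, pow_two]; group
        rw [e, h1]; group
      have h4 : q⁻¹ * (x * q * x⁻¹) ∈ om Q := h.mem_om.2 ⟨Q.mul_mem (Q.inv_mem hq) h2, h3⟩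
      have h5 : Commute x (q⁻¹ * (x * q * x⁻¹)) := ((mem_centralizer_iff.1 hx) _ h4).symm
      have h6 := comm_pow_eq_one (pow_orderOf_eq_one x) h5
      have h7 : orderOf (q⁻¹ * (x * q * x⁻¹)) = 1 :=
        Nat.eq_one_of_dvd_coprimes hxo (orderOf_dvd_of_pow_eq_one h6) (orderOf_dvd_of_pow_eq_one h3)
      rw [orderOf_eq_one_iff] at h7
      exact (inv_mul_eq_one.1 h7).symm
  rw [mem_centralizer_iff]
  intro q hq
  obtain ⟨k, hk⟩ := h.large.pgroup ⟨q, hq⟩
  have hk' : q ^ 2 ^ k = 1 := by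
    have := congrArg (Subtype.val) hk
    simpa using this
  have h1 := key k q hq hk'
  have h2 : x * q * x⁻¹ * x = q * x := by rw [h1]
  rw [inv_mul_cancel_right] at h2
  exact h2.symm

theorem odd_eq_one (h : AbLarge Q) {x : G} (hx : x ∈ Q) (hxo : (orderOf x).Coprime 2) : x = 1 := by
  obtain ⟨k, hk⟩ := h.large.pgroup ⟨x, hx⟩
  have hk' : x ^ 2 ^ k = 1 := by
    have := congrArg (Subtype.val) hk
    simpa using this
  have h5 : orderOf x ∣ 2 ^ k := orderOf_dvd_of_pow_eq_one hk'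
  have h6 : orderOf x = 1 := Nat.eq_one_of_dvd_coprimes (Nat.Coprime.pow_right k hxo) dvd_rfl h5
  exact orderOf_eq_one_iff.1 h6

/-- `C_G(Ω₁(Q)) = Q` -/
theorem cent_om [Finite G] (h : AbLarge Q) : centralizer (om Q : Set G) = Q := by
  apply le_antisymm
  · have hN : centralizer (om Q : Set G) ≤ normalizer (Q : Set G) :=
      (centralizer_le_norm _).trans h.norm_om.le
    have hp : IsPGroup 2 ↥(centralizer (om Q : Set G)) := by
      apply subgroup_isPGroup_of_coprime_trivial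
      intro x hx hxo
      exact h.odd_eq_one (h.cent_eq ▸ h.odd_cent (hN hx) hx hxo) hxo
    have h1 : centralizer (om Q : Set G) ≤ pCoreOf 2 (normalizer (Q : Set G)) := by
      refine le_pCoreOf hN ?_ hp
      rw [← h.norm_om]
      exact norm_le_norm_centralizer _
    rwa [← h.core] at h1
  · exact h.le_cent.trans (Subgroup.centralizer_le h.om_le)

theorem om_ti [Finite G] (h : AbLarge Q) (g : G) : cj g (om Q) = om Q ∨ cj g (om Q) ⊓ om Q = ⊥ := by
  by_cases h0 : cj g (om Q) ⊓ om Q = ⊥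
  · exact Or.inr h0
  · left
    obtain ⟨x, hx⟩ := Subgroup.ne_bot_iff_exists_ne_one.1 h0
    have h1 : (x : G) ≠ 1 := fun h => hx (Subtype.ext h)
    have h2 := h.ti (h.om_le x.2.2) (cj_mono h.om_le x.2.1) h1
    rw [← h.norm_om] at h2
    exact mem_norm.1 h2

theorem om_wc [Finite G] (h : AbLarge Q) (g : G) (hg : cj g (om Q) ≤ normalizer (om Q : Set G)) :
    cj g (om Q) = om Q := by
  have h1 : om Q ⊓ centralizer (cj g (om Q) : Set G) ≠ ⊥ :=
    PLocal.OffenderStep.inf_centralizer_ne_bot (om Q) (cj g (om Q)) (ea_isPGroup h.om_ea)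
      (isPGroup_cj (ea_isPGroup h.om_ea)) hg h.om_ne_bot
  rw [← cj_centralizer, h.cent_om] at h1
  obtain ⟨x, hx⟩ := Subgroup.ne_bot_iff_exists_ne_one.1 h1
  have h1 : (x : G) ≠ 1 := fun h => hx (Subtype.ext h)
  have h2 := h.ti (h.om_le x.2.1) x.2.2 h1
  rw [← h.norm_om] at h2
  exact mem_norm.1 h2

end AbLarge

/-- the configuration of the theorem -/
structure Cfg (S : Sylow 2 G) (Q R : Subgroup G) : Prop where
  ab : AbLarge Q
  QS : Q ≤ (S : Subgroup G)
  Rp : IsPGroup 2 ↥R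
  R1 : R ≠ ⊥
  SR : (S : Subgroup G) ≤ normalizer (R : Set G)
  nR : ¬ normalizer (R : Set G) ≤ normalizer (Q : Set G)

namespace Cfg

variable {S : Sylow 2 G} {R : Subgroup G}

theorem S_le [Finite G] (c : Cfg S Q R) : (S : Subgroup G) ≤ normalizer (Q : Set G) :=
  c.ab.large.le_norm_of_le S.2 c.QS

theorem R_le (c : Cfg S Q R) : R ≤ (S : Subgroup G) := by
  have h1 : IsPGroup 2 ↥(R ⊔ S : Subgroup G) := isPGroup_sup_of_norm c.Rp S.2 c.SR
  have h2 : R ⊔ S = S := S.3 h1 le_sup_right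
  exact sup_eq_right.1 h2

theorem not_R_le (c : Cfg S Q R) : ¬ R ≤ Q := fun h => c.nR (c.ab.norm_le h c.R1)

theorem not_top_le (c : Cfg S Q R) : ¬ (⊤ : Subgroup G) ≤ normalizer (Q : Set G) :=
  fun h => c.nR (le_top.trans h)

variable [Finite G]

/-- every normal `2`-subgroup is trivial -/
theorem two_bot (c : Cfg S Q R) {N : Subgroup G} (hN : N.Normal) (hp : IsPGroup 2 ↥N) : N = ⊥ := by
  by_contra h1
  have hNt : (⊤ : Subgroup G) ≤ normalizer (N : Set G) := by
    rw [normalizer_eq_top_iff.2 hN]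
  have hNS : N ≤ (S : Subgroup G) := by
    have h2 : IsPGroup 2 ↥(N ⊔ S : Subgroup G) := isPGroup_sup_of_norm hp S.2 (le_top.trans hNt)
    have h3 : N ⊔ S = S := S.3 h2 le_sup_right
    exact sup_eq_right.1 h3
  have h2 : N ≤ pCoreOf 2 (normalizer (Q : Set G)) :=
    le_pCoreOf (hNS.trans c.S_le) (le_top.trans hNt) hp
  rw [← c.ab.core] at h2
  exact c.not_top_le (hNt.trans (c.ab.norm_le h2 h1))

/-- `Q` is not cyclic -/
theorem not_cyclic (c : Cfg S Q R) : ¬ IsCyclic ↥Q := by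
  intro hcy
  have h1 : normalizer (Q : Set G) ≤ centralizer (AbLarge.om Q : Set G) := by
    intro x hx
    rw [← c.ab.norm_om] at hx
    have hB : IsCyclic ↥(AbLarge.om Q) := by
      have := Subgroup.isCyclic ((AbLarge.om Q).subgroupOf Q)
      exact isCyclic_of_surjective (Subgroup.subgroupOfEquivOfLe c.ab.om_le) (MulEquiv.surjective _)
    obtain ⟨g, hg⟩ := hB.exists_generator
    have key : ∀ b ∈ AbLarge.om Q, b ≠ 1 → b = g := by
      intro b hb hb1
      obtain ⟨n, hn⟩ := mem_zpowers_iff.1 (hg ⟨b, hb⟩)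
      have hn' : (g : G) ^ n = b := congrArg Subtype.val hn
      have hg2 : (g : G) ^ 2 = 1 := (c.ab.mem_om.1 g.2).2
      rcases Int.even_or_odd' n with ⟨m, rfl | rfl⟩
      · exfalso
        apply hb1
        rw [← hn', zpow_mul]
        have : (g : G) ^ (2 : ℤ) = 1 := by exact_mod_cast hg2
        rw [this, one_zpow]
      · rw [← hn', zpow_add, zpow_mul]
        have : (g : G) ^ (2 : ℤ) = 1 := by exact_mod_cast hg2
        rw [this, one_zpow, one_mul, zpow_one]
    rw [mem_centralizer_iff]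
    intro b hb
    by_cases hb1 : b = 1
    · subst hb1; simp
    · have h2 : x * b * x⁻¹ ∈ AbLarge.om Q := le_norm_iff.1 le_rfl x hx b hb
      have h3 : x * b * x⁻¹ ≠ 1 := by
        intro h
        apply hb1
        have : x * b * x⁻¹ * x = 1 * x := by rw [h]
        rw [inv_mul_cancel_right, one_mul] at this
        exact mul_eq_left.1 this
      have h4 := key _ h2 h3
      rw [← key b hb hb1] at h4
      have : x * b * x⁻¹ * x = b * x := by rw [h4]
      rw [inv_mul_cancel_right] at this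
      exact this.symm
  rw [c.ab.cent_om] at h1
  exact c.not_R_le (c.R_le.trans (c.S_le.trans h1))

/-- every normal subgroup of odd order is trivial -/
theorem odd_bot (c : Cfg S Q R) {K : Subgroup G} (hK : K.Normal) (ho : (Nat.card ↥K).Coprime 2) : K = ⊥ := by
  have hcop : (Nat.card ↥Q).Coprime (Nat.card ↥K) := by
    obtain ⟨n, hn⟩ := IsPGroup.iff_card.1 c.ab.large.pgroup
    rw [hn]
    exact (ho.symm).pow_left n
  have hcomm : IsMulCommutative ↥Q := ⟨⟨fun a b => Subtype.ext (c.ab.comm a a.2 b b.2)⟩⟩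
  have hKN : K ≤ normalizer (Q : Set G) := by
    rw [← S0058.result Q K c.not_cyclic (le_top.trans (normalizer_eq_top_iff.2 hK).ge) hcop]
    apply iSup₂_le
    rintro a ⟨ha, ha1⟩
    intro y hy
    refine c.ab.cent_elt ha ha1 ?_
    exact (mem_centralizer_iff.1 hy.2 a rfl).symm
  have hbot : K ⊓ Q = ⊥ := (inf_comm _ _).trans (disjoint_iff.1 (Subgroup.disjoint_of_coprime_natCard hcop))
  have h1 : K ≤ centralizer (Q : Set G) := by
    intro k hk
    rw [mem_centralizer_iff]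
    intro q hq
    have h2 : k * q * k⁻¹ * q⁻¹ ∈ K ⊓ Q := by
      refine ⟨?_, ?_⟩
      · have e : k * q * k⁻¹ * q⁻¹ = k * (q * k⁻¹ * q⁻¹) := by group
        rw [e]
        exact K.mul_mem hk (hK.conj_mem _ (K.inv_mem hk) q)
      · exact Q.mul_mem (le_norm_iff.1 hKN k hk q hq) (Q.inv_mem hq)
    rw [hbot, mem_bot] at h2
    have h3 : k * q * k⁻¹ = q := mul_inv_eq_one.1 h2
    have : k * q * k⁻¹ * k = q * k := by rw [h3]
    rw [inv_mul_cancel_right] at this
    exact this.symm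
  rw [c.ab.cent_eq] at h1
  rw [← inf_eq_left.2 h1]
  exact hbot

/-- the centralizer of a normal subgroup containing `Ω₁(Q)` is trivial -/
theorem cent_bot (c : Cfg S Q R) {M : Subgroup G} (hM : M.Normal) (hB : AbLarge.om Q ≤ M) :
    centralizer (M : Set G) = ⊥ := by
  have h1 : centralizer (M : Set G) ≤ Q := by
    rw [← c.ab.cent_om]
    exact Subgroup.centralizer_le hB
  exact c.two_bot inferInstance (isPGroup_mono h1 c.ab.large.pgroup)

/-- the involutions of `S ∩ M` are not all central in `S ∩ M`. -/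
theorem false_of_central (c : Cfg S Q R) {M : Subgroup G} (hM : M.Normal) (hB : AbLarge.om Q ≤ M)
    (h : ∀ x ∈ (S : Subgroup G) ⊓ M, ∀ y ∈ (S : Subgroup G) ⊓ M, x * x = 1 → x * y = y * x) : False := by
  have hBS : AbLarge.om Q ≤ (S : Subgroup G) ⊓ M := le_inf (c.ab.om_le.trans c.QS) hB
  have h1 : (S : Subgroup G) ⊓ M ≤ Q := by
    rw [← c.ab.cent_om]
    intro y hy
    rw [mem_centralizer_iff]
    intro b hb
    refine h b (hBS hb) y hy ?_
    have := (c.ab.mem_om.1 hb).2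
    rwa [pow_two] at this
  have hMt : ∀ K : Subgroup G, K ≤ normalizer (M : Set G) := fun K => by
    rw [normalizer_eq_top_iff.2 hM]; exact le_top
  by_cases h2 : R ⊓ M = ⊥
  · apply c.not_R_le
    rw [← c.ab.cent_om]
    intro r hr
    rw [mem_centralizer_iff]
    intro b hb
    have h3 : r * b * r⁻¹ * b⁻¹ ∈ R ⊓ M := by
      refine ⟨?_, ?_⟩
      · have e : r * b * r⁻¹ * b⁻¹ = r * (b * r⁻¹ * b⁻¹) := by group
        rw [e]
        refine R.mul_mem hr ?_
        exact le_norm_iff.1 c.SR b (hBS hb).1 _ (R.inv_mem hr)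
      · exact M.mul_mem (hM.conj_mem _ (hB hb) r) (M.inv_mem (hB hb))
    rw [h2, mem_bot] at h3
    have h3 : r * b * r⁻¹ = b := mul_inv_eq_one.1 h3
    have : r * b * r⁻¹ * r = b * r := by rw [h3]
    rw [inv_mul_cancel_right] at this
    exact this.symm
  · apply c.nR
    have h3 : R ⊓ M ≤ Q := (inf_le_inf_right _ c.R_le).trans h1
    refine le_trans ?_ (c.ab.norm_le h3 h2)
    exact le_trans (le_inf le_rfl (hMt _)) (norm_inf_le _ _)

end Cfg

end Cfsg.Agent.H257.LargeAb
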