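import Mathlib

/-!
# Involutions of the alternating group of degree seven

For an involution `t` of `A₇` there is an element `c` of order 3 centralizing `t` with `(b c b⁻¹ c⁻¹)³ = 1` for all `b`
commuting with `t`.
-/

set_option autoImplicit false
open Equiv Equiv.Perm

namespace Cfsg.Agent.H257.LargeAltSeven

/-- the involution `(0 1)(2 3)` -/
def t0 : Perm (Fin 7) := swap 0 1 * swap 2 3

/-- the 3-cycle `(4 5 6)` -/
def c0 : Perm (Fin 7) := swap 4 5 * swap 5 6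

theorem t0_fix : ∀ x : Fin 7, t0 x = x ↔ x = 4 ∨ x = 5 ∨ x = 6 := by decide

theorem c0_pow : c0 ^ 3 = 1 := by decide

theorem c0_ne : c0 ≠ 1 := by decide

theorem c0_t0 : c0 * t0 = t0 * c0 := by decide

theorem c0_fix : ∀ x : Fin 7, ¬ (x = 4 ∨ x = 5 ∨ x = 6) → c0 x = x ∧ c0⁻¹ x = x := by decide

theorem c0_val : c0 4 = 5 ∧ c0 5 = 6 ∧ c0 6 = 4 ∧ c0⁻¹ 4 = 6 ∧ c0⁻¹ 5 = 4 ∧ c0⁻¹ 6 = 5 := by decide

theorem key (b : Perm (Fin 7)) (h : b * t0 = t0 * b) : b * c0 = c0 * b ∨ b * c0 = c0⁻¹ * b := by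
  have hfix : ∀ x, (x = 4 ∨ x = 5 ∨ x = 6) ↔ (b x = 4 ∨ b x = 5 ∨ b x = 6) := by
    intro x
    rw [← t0_fix, ← t0_fix]
    have h1 : b (t0 x) = t0 (b x) := by
      have := congrArg (fun f : Perm (Fin 7) => f x) h
      simpa using this
    rw [← h1]
    exact b.injective.eq_iff.symm
  have h4 := (hfix 4).1 (by simp)
  have h5 := (hfix 5).1 (by simp)
  have h6 := (hfix 6).1 (by simp)
  have n45 : b 4 ≠ b 5 := fun h => by have := b.injective h; simp at this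
  have n46 : b 4 ≠ b 6 := fun h => by have := b.injective h; simp at this
  have n56 : b 5 ≠ b 6 := fun h => by have := b.injective h; simp at this
  obtain ⟨v4, v5, v6, w4, w5, w6⟩ := c0_val
  have hrest : ∀ x, ¬ (x = 4 ∨ x = 5 ∨ x = 6) → b (c0 x) = c0 (b x) ∧ b (c0 x) = c0⁻¹ (b x) := by
    intro x hx
    rw [(c0_fix x hx).1]
    have h1 := c0_fix (b x) (fun h => hx ((hfix x).2 h))
    exact ⟨h1.1.symm, h1.2.symm⟩
  have main : (b (c0 4) = c0 (b 4) ∧ b (c0 5) = c0 (b 5) ∧ b (c0 6) = c0 (b 6)) ∨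
      (b (c0 4) = c0⁻¹ (b 4) ∧ b (c0 5) = c0⁻¹ (b 5) ∧ b (c0 6) = c0⁻¹ (b 6)) := by
    rw [v4, v5, v6]
    rcases h4 with h4 | h4 | h4 <;> rcases h5 with h5 | h5 | h5 <;> rcases h6 with h6 | h6 | h6 <;>
      first
      | exact absurd (h4.trans h5.symm) n45
      | exact absurd (h4.trans h6.symm) n46
      | exact absurd (h5.trans h6.symm) n56
      | exact Or.inl ⟨by rw [h4, h5]; decide, by rw [h5, h6]; decide, by rw [h6, h4]; decide⟩
      | exact Or.inr ⟨by rw [h4, h5]; decide, by rw [h5, h6]; decide, by rw [h6, h4]; decide⟩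
  rcases main with ⟨m4, m5, m6⟩ | ⟨m4, m5, m6⟩
  · left
    ext1 x
    by_cases hx : x = 4 ∨ x = 5 ∨ x = 6
    · rcases hx with rfl | rfl | rfl
      · exact m4
      · exact m5
      · exact m6
    · exact (hrest x hx).1
  · right
    ext1 x
    by_cases hx : x = 4 ∨ x = 5 ∨ x = 6
    · rcases hx with rfl | rfl | rfl
      · exact m4
      · exact m5
      · exact m6
    · exact (hrest x hx).2

theorem key3 (b : Perm (Fin 7)) (h : b * t0 = t0 * b) : (b * c0 * b⁻¹ * c0⁻¹) ^ 3 = 1 := by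
  rcases key b h with h | h
  · have : b * c0 * b⁻¹ * c0⁻¹ = 1 := by rw [h]; group
    rw [this, one_pow]
  · have : b * c0 * b⁻¹ * c0⁻¹ = c0⁻¹ ^ 2 := by rw [h]; group
    rw [this, ← pow_mul, mul_comm, pow_mul, inv_pow, c0_pow, inv_one, one_pow]

theorem isConj_t0 {t : Perm (Fin 7)} (ht : t ^ 2 = 1) (ht1 : t ≠ 1) (hs : sign t = 1) : IsConj t0 t := by
  have ho : orderOf t = 2 := orderOf_eq_prime ht ht1
  obtain ⟨n, hn⟩ := cycleType_prime_order (σ := t) (by rw [ho]; exact Nat.prime_two)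
  rw [ho] at hn
  have h1 : t.cycleType.sum ≤ 7 := by
    rw [sum_cycleType]
    exact (Finset.card_le_univ _).trans (by simp)
  rw [hn, Multiset.sum_replicate, smul_eq_mul] at h1
  have h2 := sign_of_cycleType' t
  rw [hs, hn, Multiset.map_replicate, Multiset.prod_replicate] at h2
  have hn2 : n = 1 := by
    have : n = 0 ∨ n = 1 ∨ n = 2 := by omega
    rcases this with rfl | rfl | rfl
    · exact absurd h2 (by decide)
    · rfl
    · exact absurd h2 (by decide)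
  subst hn2
  rw [isConj_iff_cycleType_eq, hn]
  have ho' : orderOf t0 = 2 := orderOf_eq_prime (by decide) (by decide)
  obtain ⟨m, hm⟩ := cycleType_prime_order (σ := t0) (by rw [ho']; exact Nat.prime_two)
  rw [ho'] at hm
  have h3 : t0.cycleType.sum = 4 := by
    rw [sum_cycleType]
    decide
  rw [hm, Multiset.sum_replicate, smul_eq_mul] at h3
  have : m = 1 := by omega
  rw [hm, this]

/-- the element of order 3 attached to an involution of `A₇` -/
theorem exists_three {t : alternatingGroup (Fin 7)} (ht : t ^ 2 = 1) (ht1 : t ≠ 1) :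
    ∃ c : alternatingGroup (Fin 7), c ≠ 1 ∧ c ^ 3 = 1 ∧ c * t = t * c ∧
      ∀ b : alternatingGroup (Fin 7), b * t = t * b → (b * c * b⁻¹ * c⁻¹) ^ 3 = 1 := by
  obtain ⟨g, hg⟩ := isConj_iff.1 (isConj_t0 (t := (t : Perm (Fin 7))) (by exact_mod_cast ht)
    (fun h => ht1 (Subtype.ext h)) (mem_alternatingGroup.1 t.2))
  have hs : sign (g * c0 * g⁻¹) = 1 := by
    rw [Perm.sign_mul, Perm.sign_mul, Perm.sign_inv, mul_right_comm, Int.units_mul_self, one_mul]
    decide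
  refine ⟨⟨g * c0 * g⁻¹, mem_alternatingGroup.2 hs⟩, ?_, ?_, ?_, ?_⟩
  · intro h
    have h1 : g * c0 * g⁻¹ = 1 := congrArg Subtype.val h
    exact c0_ne (conj_eq_one_iff.1 h1)
  · apply Subtype.ext
    show (g * c0 * g⁻¹) ^ 3 = 1
    rw [conj_pow, c0_pow, mul_one, mul_inv_cancel]
  · apply Subtype.ext
    show g * c0 * g⁻¹ * (t : Perm (Fin 7)) = (t : Perm (Fin 7)) * (g * c0 * g⁻¹)
    rw [← hg]
    have e1 : g * c0 * g⁻¹ * (g * t0 * g⁻¹) = g * (c0 * t0) * g⁻¹ := by group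
    have e2 : g * t0 * g⁻¹ * (g * c0 * g⁻¹) = g * (t0 * c0) * g⁻¹ := by group
    rw [e1, e2, c0_t0]
  · intro b hb
    have hb' : (b : Perm (Fin 7)) * t = t * b := congrArg Subtype.val hb
    rw [← hg] at hb'
    have h1 : g⁻¹ * b * g * t0 = t0 * (g⁻¹ * b * g) := by
      have e1 : g⁻¹ * (b : Perm (Fin 7)) * g * t0 = g⁻¹ * (b * (g * t0 * g⁻¹)) * g := by group
      have e2 : t0 * (g⁻¹ * (b : Perm (Fin 7)) * g) = g⁻¹ * (g * t0 * g⁻¹ * b) * g := by group
      rw [e1, e2, hb']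
    have h2 := key3 _ h1
    apply Subtype.ext
    show ((b : Perm (Fin 7)) * (g * c0 * g⁻¹) * (b : Perm (Fin 7))⁻¹ * (g * c0 * g⁻¹)⁻¹) ^ 3 = 1
    have e3 : (b : Perm (Fin 7)) * (g * c0 * g⁻¹) * (b : Perm (Fin 7))⁻¹ * (g * c0 * g⁻¹)⁻¹ =
        g * (g⁻¹ * b * g * c0 * (g⁻¹ * b * g)⁻¹ * c0⁻¹) * g⁻¹ := by group
    rw [e3, conj_pow, h2, mul_one, mul_inv_cancel]

end Cfsg.Agent.H257.LargeAltSeven
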